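import Cfsg.Agent.H780.P9.Iface

/-!
# S5925, box H: the WP lemmas `wp_Alpha`, `wp_Alpha0` (plan v3) (helper908)

General blocks: `T9` (choice of `t 8` and the four scalars), `PR` (pair of lanes), `AT` (stage `plAT`), for any continuation.
-/

set_option autoImplicit false
set_option linter.style.longLine false

namespace Cfsg.Agent.H908.P9
open Matrix Cfsg.Agent.H879.E83 Cfsg.Agent.H780.P9

/-- the choice of `t 8` and the four scalars -/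
def T9 (pl : Plan) : Plan :=
  (.alt [.zero, (.pw 0), (.neg (.pw 0))]
  (.kf (.neg (.add (.add (.k 12) (.mul (.pw 20) (.k 29))) (.k 33)))
  (.kf (.neg (.add (.add (.k 13) (.mul (.pw 60) (.k 29))) (.neg (.k 33))))
  (.kf (.fr (.fr (.k 34)))
  (.kf (.fr (.fr (.k 35))) pl)))))

/-- the pair `(q03, q24)` -/
def PR (pl : Plan) : Plan :=
  (.ksp (.k 34)
  (.or (.ex (.df .zero (.sel [0, 1, 2, 3, 4, 5, 6, 7, 9] pl)))
  (.exn (.df .zero (.sel [0, 1, 2, 3, 4, 5, 6, 9, 7] pl))))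
  (.exn (.df (.mul (.k 36) (.fr (.fr (.v 8)))) (.sel [0, 1, 2, 3, 4, 5, 6, 7, 9] pl))))

/-- the stage `plAT` -/
def AT (pl : Plan) : Plan :=
  (.df (.sub (.v 3) (.mul (.v 7) (.k 23)))
  (.df (.mul (.sub (.v 4) (.v 8)) (.k 24))
  (.df (.mul (.v 7) (.fr (.fr (.v 9))))
  (.df (.mul (.v 10) (.fr (.fr (.v 8))))
  (.fl [(.sub (.mul (.v 9) (.fr (.fr (.v 10)))) (.k 35)), (.sub (.v 5) (.add (.v 11) (.fr (.fr (.v 11))))),
    (.sub (.v 6) (.add (.v 12) (.fr (.fr (.v 12)))))] [1, 0, 2, 7, 8, 9, 10] pl)))))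

section
variable {F : Type*} [Field F] {g : F} {q p : Mt F} {m : F} {t : Fin 10 → F} {G : Prop}

theorem hermA (c : Ctx g q p m t) (a b : Fin 5) :
    p a 2 ^ 9 * p 0 b + p a 1 ^ 9 * p 1 b + p a 0 ^ 9 * p 2 b - p a 4 ^ 9 * p 3 b
      - p a 3 ^ 9 * p 4 b = if sgm a = b then Jv (sgm a) else 0 :=
  herm_exp' c.four.herm a b

theorem hK (_ : Ctx g q p m t) : K38 g p t = K33 g p t ++ [t 8] ++ [QQ p 0 3] ++ [QQ p 0 4] ++ [QQ p 0 3 ^ 9] ++ [QQ p 0 4 ^ 9] := by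
  rw [K38]
  simp only [List.append_assoc, List.cons_append, List.nil_append]

theorem hK40 (x y : F) : K40 g p t x y = K38 g p t ++ [x] ++ [y] := by
  rw [K40]
  simp only [List.append_assoc, List.cons_append, List.nil_append]

theorem wp_T9 (c : Ctx g q p m t) {pl : Plan} {ls : List F} (h : WP g G pl (K38 g p t) ls) : WP g G (T9 pl) (K33 g p t) ls := by
  have key : ∀ e : Ex, e ∈ ([.zero, (.pw 0), (.neg (.pw 0))] : List Ex) → e.eval g (K33 g p t) [] = t 8 →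
      WP g G (T9 pl) (K33 g p t) ls := by
    intro e he h8
    rw [hK c] at h
    refine WP_alt (x := t 8) e he h8 (WP_kf (x := QQ p 0 3) ?_ (WP_kf (x := QQ p 0 4) ?_ (WP_kf (x := QQ p 0 3 ^ 9) ?_
      (WP_kf (x := QQ p 0 4 ^ 9) ?_ h))))
    · show -(B03 g t + g ^ 20 * t 7 + t 8) = QQ p 0 3
      exact c.Q03.symm
    · show -(B04 g t + g ^ 60 * t 7 + -t 8) = QQ p 0 4
      exact c.Q04.symm
    · show (QQ p 0 3 ^ 3) ^ 3 = QQ p 0 3 ^ 9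
      rw [← pow_mul]
    · show (QQ p 0 4 ^ 3) ^ 3 = QQ p 0 4 ^ 9
      rw [← pow_mul]
  rcases c.tr 8 with h8 | h8 | h8
  · exact key .zero (by simp) h8.symm
  · exact key (.pw 0) (by simp) (by rw [h8]; exact pow_zero g)
  · exact key (.neg (.pw 0)) (by simp) (by rw [h8]; exact congrArg Neg.neg (pow_zero g))

theorem wp_PR (c : Ctx g q p m t) {pl : Plan} (tl : List F) (h : WP g G pl (K38 g p t ++ tl) (LC p ++ [p 0 3, p 2 4])) :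
    WP g G (PR pl) (K38 g p t ++ tl) (LC p) := by
  refine WP_ksp ?_ ?_
  · intro h0
    have h1 : p 0 3 * p 2 4 ^ 9 = 0 := h0
    by_cases h2 : p 2 4 = 0
    · refine WP_or_left (WP_ex (p 0 3) (c.p81 0 3) (WP_df (x := 0) rfl (WP_sel (ls' := LC p ++ [p 0 3, p 2 4]) ?_ h)))
      rw [h2]; rfl
    · have h3 : p 0 3 = 0 := (mul_eq_zero.1 h1).resolve_right (pow_ne_zero _ h2)
      refine WP_or_right (WP_exn (p 2 4) (pow80_of (c.p81 2 4) h2) (WP_df (x := 0) rfl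
        (WP_sel (ls' := LC p ++ [p 0 3, p 2 4]) ?_ h)))
      rw [h3]; rfl
  · intro h0
    have h1 : p 0 3 * p 2 4 ^ 9 ≠ 0 := h0
    have h2 : p 0 3 ≠ 0 := left_ne_zero_of_mul h1
    have e80 := pow80_of (c.p81 0 3) h2
    refine WP_exn (p 0 3) e80 (WP_df (x := p 2 4) ?_ (WP_sel (ls' := LC p ++ [p 0 3, p 2 4]) rfl h))
    show (p 0 3 * p 2 4 ^ 9) ^ 9 * (((p 0 3 ^ 79) ^ 3) ^ 3) = p 2 4
    calc (p 0 3 * p 2 4 ^ 9) ^ 9 * (((p 0 3 ^ 79) ^ 3) ^ 3) = (p 0 3 ^ 80) ^ 9 * p 2 4 ^ 81 := by ring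
      _ = p 2 4 := by rw [e80, one_pow, one_mul, c.p81]

theorem wp_AT (c : Ctx g q p m t) (h13 : p 1 3 = 1) (h14 : p 1 4 ≠ 0) {pl : Plan} (tl : List F)
    (h : WP g G pl (K38 g p t ++ tl) (LS2 p)) : WP g G (AT pl) (K38 g p t ++ tl) (LC p ++ [p 0 3, p 2 4]) := by
  have s := c.sym
  have e10 : p 1 2 ^ 9 * p 0 0 + p 1 1 ^ 9 * p 0 1 + p 0 1 ^ 9 * p 0 2 - p 1 4 ^ 9 * p 0 3 - p 0 4 = 0 := by
    have := hermA c 1 0
    rw [if_neg (by decide), h13, s 1 0, s 2 0, s 3 0, s 4 0] at this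
    linear_combination this
  have e12 : p 1 2 ^ 9 * p 0 2 + p 1 1 ^ 9 * p 1 2 + p 0 1 ^ 9 * p 2 2 - p 1 4 ^ 9 * p 2 3 - p 2 4 = 0 := by
    have := hermA c 1 2
    rw [if_neg (by decide), h13, s 1 0, s 3 2, s 4 2] at this
    linear_combination this
  have e00 : p 0 2 ^ 9 * p 0 0 + p 0 1 ^ 9 * p 0 1 + p 0 0 ^ 9 * p 0 2 - p 0 4 ^ 9 * p 0 3 - p 0 3 ^ 9 * p 0 4 = 0 := by
    have := hermA c 0 0
    rw [if_neg (by decide), s 1 0, s 2 0, s 3 0, s 4 0] at this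
    exact this
  have e22 : p 2 2 ^ 9 * p 0 2 + p 1 2 ^ 9 * p 1 2 + p 0 2 ^ 9 * p 2 2 - p 2 4 ^ 9 * p 2 3 - p 2 3 ^ 9 * p 2 4 = 0 := by
    have := hermA c 2 2
    rw [if_neg (by decide), s 2 0, s 2 1, s 3 2, s 4 2] at this
    exact this
  have e80 : p 1 4 ^ 80 = 1 := pow80_of (c.p81 1 4) h14
  have x04 := c.p81 0 4
  have x02 := c.p81 0 2
  have x22 := c.p81 2 2
  have x24 := c.p81 2 4
  have f1 : p 0 4 * (p 2 3 ^ 3) ^ 3 - QQ p 0 4 = 0 := by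
    show p 0 4 * (p 2 3 ^ 3) ^ 3 - p 0 4 * p 2 3 ^ 9 = 0
    ring
  have f2 : (p 0 1 * p 0 1 ^ 9 + (p 0 0 * p 0 2 ^ 9 + (p 0 0 * p 0 2 ^ 9) ^ 9)) -
      (p 0 3 * p 0 4 ^ 9 + ((p 0 3 * p 0 4 ^ 9) ^ 3) ^ 3) = 0 := by
    linear_combination e00 + p 0 0 ^ 9 * x02 - p 0 3 ^ 9 * x04
  have f3 : (p 1 2 * p 1 2 ^ 9 + (p 0 2 * p 2 2 ^ 9 + (p 0 2 * p 2 2 ^ 9) ^ 9)) -
      (p 2 3 * p 2 4 ^ 9 + ((p 2 3 * p 2 4 ^ 9) ^ 3) ^ 3) = 0 := by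
    linear_combination e22 + p 0 2 ^ 9 * x22 - p 2 3 ^ 9 * x24
  refine WP_df (x := p 0 4) ?_ (WP_df (x := p 2 3) ?_ (WP_df (x := p 0 3 * p 0 4 ^ 9) ?_
    (WP_df (x := p 2 3 * p 2 4 ^ 9) ?_ (WP_fl (ls' := LS2 p) ?_ rfl h))))
  · show (p 0 0 * p 1 2 ^ 9 + p 0 1 * p 1 1 ^ 9 + p 0 2 * p 0 1 ^ 9) - p 0 3 * p 1 4 ^ 9 = p 0 4
    linear_combination e10
  · show ((p 0 2 * p 1 2 ^ 9 + p 1 2 * p 1 1 ^ 9 + p 2 2 * p 0 1 ^ 9) - p 2 4) * (p 1 4 ^ 9) ^ 79 = p 2 3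
    have e : (p 1 4 ^ 9) ^ 80 = 1 := by
      calc (p 1 4 ^ 9) ^ 80 = (p 1 4 ^ 80) ^ 9 := by ring
        _ = 1 := by rw [e80, one_pow]
    have e' : p 1 4 ^ 9 * (p 1 4 ^ 9) ^ 79 = 1 := by rw [← pow_succ']; exact e
    linear_combination (p 1 4 ^ 9) ^ 79 * e12 + p 2 3 * e'
  · show p 0 3 * (p 0 4 ^ 3) ^ 3 = p 0 3 * p 0 4 ^ 9
    rw [← pow_mul]
  · show p 2 3 * (p 2 4 ^ 3) ^ 3 = p 2 3 * p 2 4 ^ 9
    rw [← pow_mul]
  · intro d hd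
    rcases List.mem_cons.1 hd with rfl | hd
    · exact f1
    rcases List.mem_cons.1 hd with rfl | hd
    · exact f2
    rcases List.mem_cons.1 hd with rfl | hd
    · exact f3
    · exact absurd hd List.not_mem_nil

/-- **the branch `q13 = 1`, `q14 ≠ 0`** -/
theorem wp_Alpha (c : Ctx g q p m t) (h13 : p 1 3 = 1) (h14 : p 1 4 ≠ 0) (h : WS2 g q p t) :
    WC g q p t plAlpha := by
  have h1 : WP g (Sol g q) (PR (AT plS2)) (K38 g p t ++ [0, 0]) (LC p) := wp_PR c _ (wp_AT c h13 h14 _ h)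
  have h2 : WP g (Sol g q) (PR (AT plS2)) (K38 g p t ++ [0] ++ [0]) (LC p) := by
    rwa [List.append_assoc]
  exact wp_T9 c (pl := .kf .zero (.kf .zero (PR (AT plS2)))) (WP_kf (x := 0) rfl (WP_kf (x := 0) rfl h2))

/-- **the branch `q13 = 1`, `q14 ≠ 0`**, `q01 = q12 = 0` -/
theorem wp_Alpha0 (c : Ctx g q p m t) (h13 : p 1 3 = 1) (h14 : p 1 4 ≠ 0) (h : WS2x g q p t plS2i) :
    WC g q p t plAlpha0 := by
  have h0 : WP g (Sol g q) plS2i (K38 g p t ++ []) (LS2 p) := by rw [List.append_nil]; exact h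
  have h1 : WP g (Sol g q) (PR (AT plS2i)) (K38 g p t ++ []) (LC p) := wp_PR c _ (wp_AT c h13 h14 _ h0)
  rw [List.append_nil] at h1
  exact wp_T9 c h1

end
end Cfsg.Agent.H908.P9
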